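import Cfsg.Agent.Lib.B27.Wt
import Cfsg.Agent.Lib.Modular.Column
import Cfsg.Agent.Lib.Modular.Values
import Cfsg.Agent.Lib.Modular.RealTwo
import Cfsg.Agent.Lib.CharDeg.PrincSolv

/-! Principal `3`-blocks of defect three with an isolated `3`-central element. -/

set_option autoImplicit false

namespace Cfsg.Lib.B27

open Finset Cfsg.Lib.Char Cfsg.Lib.Block Cfsg.Lib.Modular Subgroup
open scoped ComplexConjugate

theorem odd_sum {ι : Type*} {K : Finset ι} {t s : ι → ℤ} (h : ∀ i ∈ K, 2 ∣ t i - s i) : 2 ∣ ∑ i ∈ K, t i - ∑ i ∈ K, s i :=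
  sum_sub_distrib t s ▸ dvd_sum h

theorem par {d : ℤ} (h : d ^ 2 = 1) (a : ℤ) : 2 ∣ a ^ 2 - d * a := by
  rcases sq_eq_one_iff.1 h with rfl | rfl
  · exact (by ring : a * (a - 1) = a ^ 2 - 1 * a) ▸ (Int.even_mul_pred_self a).two_dvd
  · exact (by ring : a * (a + 1) = a ^ 2 - -1 * a) ▸ (Int.even_mul_succ_self a).two_dvd

theorem sq_cases {a : ℤ} (h : a ^ 2 ≤ 9) (h3 : ¬ 3 ∣ a) : a ^ 2 = 1 ∨ a ^ 2 = 4 := by
  obtain ⟨h1, h2⟩ := abs_le_of_sq_le_sq' (a := a) (b := 3) (by omega) (by norm_num)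
  interval_cases a <;> simp_all

theorem nine_or_six {ι : Type*} {K : Finset ι} {f g : ι → ℤ} (h : ∑ i ∈ K, f i ^ 2 = 9) (h3 : ∀ i ∈ K, ¬ 3 ∣ f i)
    {e : ι} (he : e ∈ K) (h1 : f e = 1) (h2 : g e = 1) (h0 : ∑ i ∈ K, f i * g i = 0) :
    (#K = 9 ∧ ∀ i ∈ K, f i ^ 2 = 1) ∨ #K = 6 ∧ ∃ i ∈ K, f i ^ 2 = 4 := by
  classical
  have c := fun i hi => sq_cases (h ▸ single_le_sum (fun j _ => sq_nonneg (f j)) hi) (h3 i hi)
  have a := card_filter_add_card_filter_not (s := K) fun i => f i ^ 2 = 1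
  have b := sum_filter_add_sum_filter_not K (fun i => f i ^ 2 = 1) fun i => f i ^ 2
  have d := sum_filter_add_sum_filter_not K (fun i => f i ^ 2 = 1) fun i => f i * g i
  rw [h, sum_congr rfl fun i hi => (mem_filter.1 hi).2, sum_congr rfl fun i hi =>
    (c i (mem_filter.1 hi).1).resolve_left (mem_filter.1 hi).2] at b
  simp only [sum_const, nsmul_eq_mul] at b
  have m : e ∈ K.filter fun i => f i ^ 2 = 1 := by simp [he, h1]
  have := card_pos.2 ⟨e, m⟩
  by_cases l : #{i ∈ K | f i ^ 2 = 1} = 1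
  · obtain ⟨e', l⟩ := card_eq_one.1 l
    rw [l, mem_singleton] at m
    rw [l, sum_singleton, ← m, h1, h2, h0] at d
    have : 2 ∣ ∑ i ∈ K with ¬ f i ^ 2 = 1, f i * g i := dvd_sum fun i hi => (Int.prime_two.dvd_of_dvd_pow
      (n := 2) ((c i (mem_filter.1 hi).1).resolve_left (mem_filter.1 hi).2 ▸ by norm_num)).mul_right _
    omega
  rcases (K.filter fun i => ¬ f i ^ 2 = 1).eq_empty_or_nonempty with n | ⟨i, hi⟩
  · exact .inl ⟨by simp only [n, card_empty] at a b; omega, fun i hi => not_not.1 (filter_eq_empty_iff.1 n hi)⟩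
  · have := card_pos.2 ⟨i, hi⟩
    exact .inr ⟨by omega, i, (mem_filter.1 hi).1, (c i (mem_filter.1 hi).1).resolve_left (mem_filter.1 hi).2⟩

variable {G : Type*} [Group G] [Fintype G] {M : Ideal AlgInt} [Modular 3 M] {z u v : G} {U : Finset G}
  {χ ψ : IrrCharacter G}

open Classical in
/-- The `3`-local hypotheses. -/
structure Hyp (z : G) (U : Finset G) : Prop where
  card : (Nat.card G).factorization 3 = 3
  ord : orderOf z = 3
  ordU : ∀ u ∈ U, orderOf u = 3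
  rep : ∀ g : G, (∃ k : ℕ, orderOf g = 3 ^ k) → ∃! x, x ∈ insert 1 (insert z (insert z⁻¹ U)) ∧ IsConj g x
  nz : z ∉ U
  nz' : z⁻¹ ∉ U
  npc : ∀ u ∈ U, HasNormalPComplement 3 (centralizer ({u} : Set G))
  cc : ∀ u ∈ U, (Nat.card (centralizer ({u} : Set G))).factorization 3 = 2

open Classical in
variable (M G) in
/-- The principal block. -/
noncomputable abbrev K : Finset (IrrCharacter G) := {χ | χ ∈ principalBlock M G}

open Classical in
variable (M G) in
/-- The characters of height zero. -/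
noncomputable abbrev K0 : Finset (IrrCharacter G) := {χ ∈ K G M | blockHeight 3 (principalBlock M G) (χ : G → ℂ) = 0}

open Classical in
variable (M G) in
/-- The characters of positive height. -/
noncomputable abbrev K1 : Finset (IrrCharacter G) := {χ ∈ K G M | ¬ blockHeight 3 (principalBlock M G) (χ : G → ℂ) = 0}

variable (M) in
/-- The contribution matrix. -/
noncomputable abbrev A (χ ψ : IrrCharacter G) : ℤ := contr 3 (principalBlock M G) (χ : G → ℂ) ψ

/-- The value of a character, as an integer. -/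
noncomputable def D (u : G) (χ : IrrCharacter G) : ℤ := ⌊((χ : G → ℂ) u).re⌋

omit [Modular 3 M] in
theorem mem_K : χ ∈ K G M ↔ χ ∈ principalBlock M G := by simp

omit [Modular 3 M] in
theorem sum_K {R : Type*} [AddCommMonoid R] (f : IrrCharacter G → R) :
    ∑ χ ∈ K G M, f χ = ∑ χ ∈ K0 G M, f χ + ∑ χ ∈ K1 G M, f χ := (sum_filter_add_sum_filter_not _ _ _).symm

omit [Modular 3 M] in
theorem card_K : #(K G M) = #(K0 G M) + #(K1 G M) := (card_filter_add_card_filter_not _).symm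

theorem one_K0 : irrOne G ∈ K0 G M := mem_filter.2 ⟨mem_K.2 irrOne_mem_principalBlock, blockHeight_of_degree_one rfl⟩

omit [Fintype G] in
theorem D_eq {n : ℤ} (h : (χ : G → ℂ) u = n) : D u χ = n := by rw [D, h, Complex.intCast_re, Int.floor_intCast]

theorem cast_D (h : orderOf u = 3) (hr : IsConj u u⁻¹) (χ : IrrCharacter G) :
    (χ : G → ℂ) u = D u χ ∧ 3 ∣ (charDegree (χ : G → ℂ) : ℤ) - D u χ := by
  have k : ∀ k, u ^ k = 1 ∨ IsConj u (u ^ k) := fun k => by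
    rw [← pow_mod_orderOf, h]
    have := Nat.mod_lt k three_pos
    interval_cases k % 3
    · simp
    · exact .inr (by rw [pow_one])
    · rw [eq_inv_of_mul_eq_one_left (show u ^ 2 * u = 1 by rw [← pow_succ, ← pow_orderOf_eq_one u, h])]; exact .inr hr
  obtain ⟨n, hn⟩ := χ.2.isGeneralizedCharacter.exists_int_of_isConj_pow fun j hj => (k j).resolve_left fun e => by
    simpa [h] using hj.symm.eq_one_of_dvd (orderOf_dvd_of_pow_eq_one e)
  rw [D_eq hn]
  refine ⟨hn, ?_⟩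
  have := int_dvd_charDegree_sub_of_const χ.2.isCharacter (zpowers u) (c := n) fun g hg h1 => by
    obtain ⟨j, rfl⟩ := mem_powers_iff_mem_zpowers.2 hg
    exact (χ.2.isClassFunction.eq_of_isConj ((k j).resolve_left h1)).symm.trans hn
  rwa [Nat.card_zpowers, h] at this

theorem card_le_rank {p : ℕ} {B : Set (IrrCharacter G)} {S : Finset (IrrCharacter G)} (h : ∀ χ ∈ S, χ ∈ B)
    (h1 : ∀ χ ∈ S, regInner p (χ : G → ℂ) χ ≠ 0) (h2 : ∀ χ ∈ S, ∀ ψ ∈ S, ψ ≠ χ → regInner p (χ : G → ℂ) ψ = 0) :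
    #S ≤ blockRank p B := by
  let f : S → Submodule.span ℂ ((fun χ : IrrCharacter G => pRegularPart p (χ : G → ℂ)) '' B) :=
    fun χ => ⟨_, Submodule.subset_span ⟨χ, h _ χ.2, rfl⟩⟩
  refine (Fintype.card_coe _).symm.trans_le (LinearIndependent.fintype_card_le_finrank (b := f)
    (Fintype.linearIndependent_iff.2 fun c e ψ => ?_))
  have : classInner (∑ χ, c χ • pRegularPart p (χ.1 : G → ℂ)) (ψ.1 : G → ℂ) = 0 := by
    simpa using congrArg (fun t => classInner t.1 (ψ.1 : G → ℂ)) e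
  rw [classInner_sum_left, Fintype.sum_eq_single ψ fun χ b => (classInner_smul_left _ _ _).trans
    (mul_eq_zero_of_right _ (h2 _ χ.2 _ ψ.2 fun e => b (Subtype.ext e.symm))), classInner_smul_left] at this
  exact (mul_eq_zero.1 this).resolve_right (h1 _ ψ.2)

namespace Hyp
variable (h : Hyp z U)
include h

theorem defect : blockDefect 3 (principalBlock M G) = 3 := (blockDefect_principalBlock 3).trans h.card

theorem cast_A (hχ : χ ∈ K G M) (ψ : IrrCharacter G) : (A M χ ψ : ℂ) = 27 * regInner 3 (χ : G → ℂ) ψ := by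
  rw [cast_contr (mem_K.1 hχ) ψ.2.isGeneralizedCharacter, h.defect]; norm_num

theorem dvd_iff (hχ : χ ∈ K1 G M) (hψ : ψ ∈ K G M) : 9 ∣ A M χ ψ ↔ ψ ∈ K1 G M := by
  obtain ⟨a, b⟩ := mem_filter.1 hχ
  have := height_add_two_le (M := M) Block.isPBlock_principalBlock (mem_K.1 a) b
  have c := pow_height_succ_dvd_contr_iff (p := 3) (M := M) Block.isPBlock_principalBlock (mem_K.1 a) (mem_K.1 hψ)
  rw [h.defect] at this
  rw [show blockHeight 3 (principalBlock M G) (χ : G → ℂ) = 1 by omega] at c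
  rw [mem_filter, and_iff_right hψ]; exact c

theorem A_ne (hχ : χ ∈ K1 G M) (hψ : ψ ∈ K0 G M) : A M χ ψ ≠ 0 :=
  contr_ne_zero_of_height_zero Block.isPBlock_principalBlock (mem_K.1 (mem_filter.1 hχ).1) (mem_K.1 (mem_filter.1 hψ).1)
    (mem_filter.1 hψ).2

theorem sum_sq (hχ : χ ∈ K G M) : ∑ ψ ∈ K G M, A M χ ψ ^ 2 = 27 * A M χ χ := by
  rw [sum_contr_sq Block.isPBlock_principalBlock (mem_K.1 hχ), h.defect]; norm_num

theorem trace : ∑ χ ∈ K G M, A M χ χ = 27 * blockRank 3 (principalBlock M G) := by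
  rw [sum_contr_self Block.isPBlock_principalBlock, h.defect]; norm_num

open Classical in
theorem sum_X {R : Type*} [AddCommMonoid R] (f : G → R) :
    ∑ x ∈ insert 1 (insert z (insert z⁻¹ U)), f x = f 1 + (f z + (f z⁻¹ + ∑ u ∈ U, f u)) := by
  have a : z ≠ 1 := fun e => by simpa [e] using h.ord
  have b : z ≠ z⁻¹ := fun e => by
    simpa [h.ord] using orderOf_dvd_of_pow_eq_one ((sq z).trans (eq_inv_iff_mul_eq_one.1 e))
  have c : 1 ∉ U := fun e => by simpa using h.ordU 1 e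
  rw [sum_insert (by simp [a.symm, c, a]), sum_insert (by simp [b, h.nz]), sum_insert h.nz']

open Classical in
theorem pX : ∀ x ∈ insert 1 (insert z (insert z⁻¹ U)), ∃ k : ℕ, orderOf x = 3 ^ k := by
  simp only [forall_mem_insert]
  exact ⟨pElt_one, ⟨1, h.ord⟩, ⟨1, (orderOf_inv z).trans h.ord⟩, fun u a => ⟨1, h.ordU u a⟩⟩

theorem sm_u (hu : u ∈ U) (hχ : χ ∈ K G M) (hψ : ψ ∈ K G M) :
    9 * sm 3 u (χ : G → ℂ) ψ = (χ : G → ℂ) u * conj ((ψ : G → ℂ) u) := by
  rw [← sm_npc ⟨1, h.ordU u hu⟩ (h.npc u hu) (mem_K.1 hχ) (mem_K.1 hψ), h.cc u hu]; norm_num [mul_comm]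

theorem inner {W W' : G → ℂ} (hW : IsClassFunction G W) (hW' : IsClassFunction G W') (χ ψ : IrrCharacter G) :
    classInner (wt 3 W χ) (wt 3 W' ψ) = W 1 * conj (W' 1) * regInner 3 (χ : G → ℂ) ψ + (W z * conj (W' z) * sm 3 z χ ψ +
      (W z⁻¹ * conj (W' z⁻¹) * sm 3 z⁻¹ χ ψ + ∑ u ∈ U, W u * conj (W' u) * sm 3 u χ ψ)) := by
  rw [inner_wt _ h.pX h.rep hW hW' χ.2.isClassFunction ψ.2.isClassFunction, h.sum_X, sm_one]

theorem inner_one (χ ψ : IrrCharacter G) : classInner (χ : G → ℂ) ψ =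
    regInner 3 (χ : G → ℂ) ψ + (sm 3 z χ ψ + (sm 3 z⁻¹ χ ψ + ∑ u ∈ U, sm 3 u (χ : G → ℂ) ψ)) := by
  have k : ∀ θ : G → ℂ, wt 3 (fun _ => 1) θ = θ := fun θ => funext fun _ => one_mul _
  simpa [k] using h.inner (W := fun _ => 1) (W' := fun _ => 1) (fun _ _ => rfl) (fun _ _ => rfl) χ ψ

theorem sum_sm_u (hu : u ∈ U) : ∑ χ ∈ K G M, sm 3 u (χ : G → ℂ) χ = 1 := by
  classical
  rw [sum_sm ⟨1, h.ordU u hu⟩, rank_npc (h.npc u hu), Nat.cast_one]

theorem card_eq : #(K G M) = blockRank 3 (principalBlock M G) +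
    2 * blockRank 3 (principalBlock M (centralizer ({z} : Set G))) + #U := by
  have e : centralizer ({z⁻¹} : Set G) = centralizer {z} := by
    ext; simp [mem_centralizer_singleton_iff, ← commute_iff_eq]
  apply Nat.cast_injective (R := ℂ)
  have := sum_congr (s₁ := K G M) rfl fun χ _ => h.inner_one χ χ
  simp only [fun χ : IrrCharacter G => χ.2.inner_self, sum_add_distrib] at this
  rw [← blockRank_eq_sum Block.isPBlock_principalBlock, sum_sm ⟨1, h.ord⟩, sum_sm ⟨1, (orderOf_inv z).trans h.ord⟩, sum_comm,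
    sum_congr (s₁ := U) rfl fun u a => h.sum_sm_u a, e] at this
  simp at this ⊢
  linear_combination this

variable (hr : ∀ u ∈ U, IsConj u u⁻¹)
include hr

theorem cD (hu : u ∈ U) (χ : IrrCharacter G) : (χ : G → ℂ) u = D u χ := (cast_D (h.ordU u hu) (hr u hu) χ).1

theorem dvd_D (hu : u ∈ U) (hχ : χ ∈ K G M) : 3 ∣ D u χ ↔ χ ∈ K1 G M := by
  rw [mem_filter, and_iff_right hχ, CharDeg.blockHeight_principalBlock_eq_zero_iff Modular.out, not_not,
    ← Int.natCast_dvd_natCast]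
  exact (dvd_iff_dvd_of_dvd_sub (cast_D (h.ordU u hu) (hr u hu) χ).2).symm

theorem sum_D_sq (hu : u ∈ U) : ∑ χ ∈ K G M, D u χ ^ 2 = 9 := by
  apply Int.cast_injective (α := ℂ)
  have := congrArg (9 * ·) (h.sum_sm_u (M := M) hu)
  simp only [mul_sum] at this
  rw [sum_congr rfl fun χ a => h.sm_u hu a a] at this
  simpa [h.cD hr hu, sq] using this

theorem D_one (hu : u ∈ U) : D u (irrOne G) = 1 := D_eq (by simp)

theorem D_zero (hu : u ∈ U) (hχ : χ ∈ K1 G M) : D u χ = 0 := by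
  have a := h.sum_D_sq (M := M) hr hu
  rw [sum_K] at a
  have b := single_le_sum (f := fun χ => D u χ ^ 2) (fun _ _ => sq_nonneg _) (one_K0 (M := M))
  have c := single_le_sum (f := fun χ => D u χ ^ 2) (fun _ _ => sq_nonneg _) hχ
  obtain ⟨d, e⟩ := (h.dvd_D hr hu (mem_filter.1 hχ).1).2 hχ
  simp only [h.D_one hr hu, e] at b c ⊢
  nlinarith [Int.le_self_sq d, Int.le_self_sq (-d), sq_nonneg d]

theorem sum_D (hu : u ∈ U) (f : IrrCharacter G → ℤ) : ∑ χ ∈ K G M, D u χ * f χ = ∑ χ ∈ K0 G M, D u χ * f χ := by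
  rw [sum_K, sum_eq_zero (s := K1 G M) fun χ a => by rw [h.D_zero hr hu a, zero_mul], add_zero]

theorem cases (hu : u ∈ U) :
    (#(K0 G M) = 9 ∧ ∀ χ ∈ K0 G M, D u χ ^ 2 = 1) ∨ #(K0 G M) = 6 ∧ ∃ χ ∈ K0 G M, D u χ ^ 2 = 4 := by
  refine nine_or_six (g := fun χ => charDegree (χ : G → ℂ)) (by simpa only [sq, h.sum_D hr hu] using h.sum_D_sq (M := M) hr hu)
    (fun χ a b => (mem_filter.1 ((h.dvd_D hr hu (mem_filter.1 a).1).1 b)).2 (mem_filter.1 a).2) one_K0 (h.D_one hr hu)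
    (by rw [charDegree_eq (n := 1) (by simp)]; rfl) ?_
  apply Int.cast_injective (α := ℂ)
  have := sum_block_mul_conj_eq_zero (M := M) Modular.out Block.isPBlock_principalBlock (not_dvd_orderOf_one Nat.prime_three)
    (h.ordU u hu).symm.dvd
  rw [← h.sum_D hr hu]
  simpa [h.cD hr hu, fun χ : IrrCharacter G => χ.2.isCharacter.apply_one_eq, mul_comm] using this

theorem sum_DA (hu : u ∈ U) (hχ : χ ∈ K G M) : ∑ ψ ∈ K0 G M, D u ψ * A M χ ψ = 0 := by
  apply Int.cast_injective (α := ℂ)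
  have := congrFun (((inSpan_of_mem (mem_K.1 hχ)).pRegularPart (p := 3) (M := M) Modular.out Block.isPBlock_principalBlock
    χ.2.isClassFunction).eq_sum (isClassFunction_pRegularPart χ.2.isClassFunction)) u
  rw [pRegularPart_of_dvd _ (h.ordU u hu).symm.dvd, Finset.sum_apply] at this
  rw [← h.sum_D hr hu, Int.cast_zero, ← mul_zero 27, this, mul_sum, Int.cast_sum]
  exact sum_congr rfl fun ψ _ => by rw [Int.cast_mul, h.cast_A hχ, ← h.cD hr hu, mul_comm, mul_assoc]; rfl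

theorem k1_le (hu : u ∈ U) (h9 : ∀ χ ∈ K0 G M, D u χ ^ 2 = 1) (ha : ∀ χ ∈ K1 G M, A M χ χ = 9) :
    #(K1 G M) ≤ blockRank 3 (principalBlock M G) := by
  classical
  have k : ∀ χ ∈ K1 G M, ∀ ψ ∈ K1 G M, ψ ≠ χ → A M χ ψ = 0 := fun χ a ψ b c => by
    have d := h.sum_sq (mem_filter.1 a).1
    rw [sum_K, ← add_sum_erase _ _ a, ha χ a] at d
    have e := odd_sum fun ψ b => par (h9 ψ b) (A M χ ψ)
    rw [h.sum_DA hr hu (mem_filter.1 a).1] at e
    have f := single_le_sum (f := fun ψ => A M χ ψ ^ 2) (fun _ _ => sq_nonneg _) (one_K0 (M := M))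
    have g := sq_pos_of_ne_zero (h.A_ne a one_K0)
    have i : 9 ^ 2 ∣ ∑ ψ ∈ (K1 G M).erase χ, A M χ ψ ^ 2 := dvd_sum fun ψ b =>
      pow_dvd_pow_of_dvd ((h.dvd_iff a (mem_filter.1 (mem_of_mem_erase b)).1).2 (mem_of_mem_erase b)) 2
    have j := single_le_sum (f := fun ψ => A M χ ψ ^ 2) (fun _ _ => sq_nonneg _) (mem_erase.2 ⟨c, b⟩)
    have := sq_nonneg (A M χ ψ)
    exact pow_eq_zero_iff two_ne_zero |>.1 (by omega)
  refine card_le_rank (fun χ a => mem_K.1 (mem_filter.1 a).1) (fun χ a => regInner_self_ne_zero χ.2.apply_one_ne_zero)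
    fun χ a ψ b c => ?_
  simpa [k χ a ψ b c] using h.cast_A (mem_filter.1 a).1 ψ

open Classical in
theorem cast_R (hχ : χ ∈ K G M) (hψ : ψ ∈ K G M) : 9 * (regInner 3 (χ : G → ℂ) ψ + (sm 3 z χ ψ + sm 3 z⁻¹ χ ψ)) =
    ((if χ = ψ then 9 else 0) - ∑ u ∈ U, D u χ * D u ψ : ℤ) := by
  have a := congrArg (9 * ·) (h.inner_one χ ψ)
  simp only [mul_add, mul_sum] at a
  rw [sum_congr rfl fun u b => h.sm_u b hχ hψ, sum_congr rfl fun u b => by rw [h.cD hr b, h.cD hr b, map_intCast]] at a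
  split_ifs with e
  · subst e; rw [χ.2.inner_self] at a; push_cast; linear_combination -a
  · rw [χ.2.inner_eq_zero_of_ne ψ.2 fun f => e (Subtype.ext f)] at a; push_cast; linear_combination -a

theorem sum_R : ∑ χ ∈ K0 G M, (9 - ∑ u ∈ U, D u χ * D u χ) = 9 * #(K0 G M) - 9 * #U := by
  rw [sum_sub_distrib, sum_comm, sum_congr (s₁ := U) (g := fun _ => 9) rfl fun u a => by
    rw [← h.sum_D hr a, ← h.sum_D_sq (M := M) hr a]; simp only [sq]]
  simp [mul_comm]

theorem R_one (hχ : χ ∈ K1 G M) (ψ : IrrCharacter G) : ∑ u ∈ U, D u χ * D u ψ = 0 :=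
  sum_eq_zero fun u a => by rw [h.D_zero hr a hχ, zero_mul]

theorem central (hz : z ∈ center G) (hc : ∀ u ∈ U, IsConj u (z * u)) (hu : u ∈ U) :
    blockRank 3 (principalBlock M G) + #U = 6 := by
  classical
  choose ω h1 h2 using fun χ : IrrCharacter G => exists_scalar_of_mem_center χ.2 hz
  simp only [h.ord] at h1
  have h3 : ∀ χ, conj (ω χ) = ω χ ^ 2 := fun χ => by
    rw [← Complex.inv_eq_conj (Complex.norm_eq_one_of_pow_eq_one (h1 χ) three_ne_zero)]
    exact inv_eq_of_mul_eq_one_right (by rw [← pow_succ', h1])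
  have h4 : ∀ (χ : IrrCharacter G) g, (χ : G → ℂ) (z⁻¹ * g) = ω χ ^ 2 * (χ : G → ℂ) g := fun χ g => by
    have := h2 χ (z⁻¹ * g)
    rw [mul_inv_cancel_left] at this
    rw [this, ← mul_assoc, ← pow_succ, h1, one_mul]
  have h5 : ∀ χ ∈ K G M, ∀ ψ ∈ K G M, ω χ = ω ψ → A M χ ψ = (if χ = ψ then 9 else 0) - ∑ u ∈ U, D u χ * D u ψ :=
    fun χ a ψ b e => Int.cast_injective (α := ℂ) (by
      rw [← h.cast_R hr a b, h.cast_A a, sm_central hz (h2 χ) (h2 ψ), sm_central (inv_mem hz) (h4 χ) (h4 ψ), map_pow, h3, e]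
      linear_combination (-9 * regInner 3 (χ : G → ℂ) ψ * (ω ψ ^ 3 + 2)) * h1 ψ)
  have o : ω (irrOne G) = 1 := by simpa using (h2 (irrOne G) 1).symm
  have h6 : ∀ χ ∈ K1 G M, ω χ ≠ 1 := fun χ a e => h.A_ne a one_K0 (by
    rw [h5 χ (mem_filter.1 a).1 _ (mem_filter.1 one_K0).1 (e.trans o.symm), h.R_one hr a, if_neg, sub_zero]
    rintro rfl; exact (mem_filter.1 a).2 (mem_filter.1 one_K0).2)
  have h7 : ∀ χ ∈ K0 G M, ω χ = 1 := fun χ a => by_contra fun e => by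
    have := (χ.2.isClassFunction.eq_of_isConj (hc u hu)).trans (h2 χ u)
    rw [h.cD hr hu, eq_comm, mul_eq_right₀ (Int.cast_ne_zero.2 fun f : D u χ = 0 => (mem_filter.1 ((h.dvd_D hr hu
      (mem_filter.1 a).1).1 (f ▸ dvd_zero _))).2 (mem_filter.1 a).2)] at this
    exact e this
  have h8 : ∀ χ ∈ K1 G M, A M χ χ = 9 := fun χ a => by
    rw [h5 χ (mem_filter.1 a).1 _ (mem_filter.1 a).1 rfl, h.R_one hr a]; simp
  have h9 : ∑ χ ∈ K0 G M, A M χ χ = 9 * #(K0 G M) - 9 * #U := by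
    rw [← h.sum_R hr]; exact sum_congr rfl fun χ a => by rw [h5 χ (mem_filter.1 a).1 _ (mem_filter.1 a).1 rfl, if_pos rfl]
  have t := h.trace (M := M)
  have s : ∑ χ ∈ K G M, ω χ * A M χ χ = 0 := by
    rw [sum_congr rfl fun χ a => by rw [h.cast_A a, regInner_eq_sum_filter, mul_sum, mul_sum, mul_sum], sum_comm]
    refine sum_eq_zero fun g a => ?_
    have := congrArg (27 * (Nat.card G : ℂ)⁻¹ * conj ·) (sum_block_mul_conj_eq_zero (M := M) Modular.out
      Block.isPBlock_principalBlock (mem_filter.1 a).2 (y := z * g) (by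
        rw [← pPart_ne_one_iff Nat.prime_three, pPart_mul Nat.prime_three ⟨1, h.ord⟩ (mem_filter.1 a).2
          (mem_center_iff.1 hz g).symm]
        rintro rfl; simpa using h.ord))
    simp only [map_sum, mul_sum, map_mul, Complex.conj_conj, h2, map_zero, mul_zero] at this
    exact (sum_congr rfl fun χ _ => by ring).trans this
  replace s := congrArg (fun x => x + conj x) s
  simp only [map_sum, ← sum_add_distrib, map_mul, map_intCast, ← add_mul, h3] at s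
  rw [sum_K, sum_congr rfl fun χ a => by rw [h7 χ a], sum_congr (s₁ := K1 G M) (g := fun _ => -9) rfl fun χ a => by
    rw [h8 χ a]; exact mul_left_cancel₀ (sub_ne_zero.2 (h6 χ a)) (by push_cast; linear_combination 9 * h1 χ),
    ← mul_sum, ← Int.cast_sum, h9] at s
  rw [sum_K, h9, sum_congr rfl h8] at t
  simp only [sum_const, nsmul_eq_mul] at s t
  replace s : 2 * (9 * (#(K0 G M) : ℤ) - 9 * #U) = 9 * #(K1 G M) := Int.cast_injective (α := ℂ) (by
    push_cast at s ⊢; simp at s; linear_combination s)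
  rcases h.cases (M := M) hr hu with ⟨a, b⟩ | ⟨a, -⟩
  · have := h.k1_le hr hu b h8
    have := blockRank_pos (p := 3) (M := M) (G := G) Block.isPBlock_principalBlock
    omega
  · omega

theorem exists_n {Θ : G → ℂ} {ω : ℂ} (hω : ω ^ 3 = 1) (hΘ : IsClassFunction G Θ)
    (hg : ∀ Q : Subgroup G, IsPGroup 3 Q → IsGeneralizedCharacter Q fun u => Θ u) (h1 : Θ 1 = 3) (h2 : Θ z = 3 * ω)
    (h3 : Θ z⁻¹ = 3 * ω ^ 2) (h4 : ∀ u ∈ U, Θ u = 0) : ∃ n : IrrCharacter G → IrrCharacter G → ℤ,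
      (∀ χ ψ, (n χ ψ : ℂ) = 3 * regInner 3 (χ : G → ℂ) ψ + (3 * ω * sm 3 z χ ψ + 3 * ω ^ 2 * sm 3 z⁻¹ χ ψ)) ∧
        ∀ χ ∈ K G M, ∑ ψ ∈ K G M, n χ ψ ^ 2 = 9 - ∑ u ∈ U, D u χ * D u χ := by
  classical
  choose n hn using fun χ ψ : IrrCharacter G => (isGen_wt (M := M) hΘ hg χ.2.isGeneralizedCharacter).exists_inner_eq_int
    ψ.2.isGeneralizedCharacter
  have k : ∀ θ : G → ℂ, wt 3 (fun _ => 1) θ = θ := fun θ => funext fun _ => one_mul _
  have c : conj ω = ω ^ 2 := by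
    rw [← Complex.inv_eq_conj (Complex.norm_eq_one_of_pow_eq_one hω three_ne_zero)]
    exact inv_eq_of_mul_eq_one_right (by rw [← pow_succ', hω])
  refine ⟨n, fun χ ψ => ?_, fun χ a => Int.cast_injective (α := ℂ) ?_⟩
  · have := h.inner (W' := fun _ => 1) hΘ (fun _ _ => rfl) χ ψ
    rw [k, hn, sum_eq_zero fun u a => by simp [h4 u a]] at this
    simpa [h1, h2, h3] using this
  · have b := h.inner hΘ hΘ χ χ
    rw [(inSpan_wt (M := M) Block.isPBlock_principalBlock hΘ (inSpan_of_mem (mem_K.1 a)) χ.2.isClassFunction).inner_eq_sum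
      (isClassFunction_wt hΘ χ.2.isClassFunction), sum_eq_zero (s := U) fun u a => by simp [h4 u a]] at b
    have := h.cast_R hr a a
    rw [if_pos rfl] at this
    rw [← this, Int.cast_sum, sum_congr rfl fun ψ _ => show ((n χ ψ ^ 2 : ℤ) : ℂ) = classInner (wt 3 Θ χ) ψ *
      classInner ψ (wt 3 Θ χ) by rw [← conj_classInner (wt 3 Θ χ), hn]; simp [sq], b, h1, h2, h3]
    simp only [map_mul, map_pow, c, map_ofNat]
    linear_combination (9 * sm 3 z (χ : G → ℂ) χ + 9 * sm 3 z⁻¹ (χ : G → ℂ) χ * (ω ^ 3 + 1)) * hω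

theorem main {Θ : G → ℂ} {ω : ℂ} (hω : ω ^ 2 + ω + 1 = 0) (hΘ : IsClassFunction G Θ)
    (hg : ∀ Q : Subgroup G, IsPGroup 3 Q → IsGeneralizedCharacter Q fun u => Θ u) (h1 : Θ 1 = 3) (h2 : Θ z = 3 * ω)
    (h3 : Θ z⁻¹ = 3 * ω ^ 2) (h4 : ∀ u ∈ U, Θ u = 0) (hu : u ∈ U)
    (hl : blockRank 3 (principalBlock M (centralizer ({z} : Set G))) + #U = 6) :
    #(K0 G M) = 6 ∧ blockRank 3 (principalBlock M G) + #U = 6 := by
  classical
  have o : ω ^ 3 = 1 := by linear_combination (ω - 1) * hω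
  have c : conj ω = ω ^ 2 := by
    rw [← Complex.inv_eq_conj (Complex.norm_eq_one_of_pow_eq_one o three_ne_zero)]
    exact inv_eq_of_mul_eq_one_right (by rw [← pow_succ', o])
  obtain ⟨n, n1, n2⟩ := h.exists_n (M := M) hr o hΘ hg h1 h2 h3 h4
  obtain ⟨m, m1, m2⟩ := h.exists_n (M := M) hr (Θ := fun g => conj (Θ g)) (ω := ω ^ 2) (by rw [← pow_mul, mul_comm, pow_mul, o,
    one_pow]) hΘ.conj (fun Q a => (hg Q a).conj) (by simp [h1, map_ofNat]) (by simp [h2, c, map_ofNat])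
      (by simp [h3, c, map_ofNat]) (by simpa using h4)
  have a1 : ∀ χ ∈ K G M, ∀ ψ ∈ K G M, A M χ ψ = (if χ = ψ then 9 else 0) - ∑ u ∈ U, D u χ * D u ψ + 3 * (n χ ψ + m χ ψ) :=
    fun χ a ψ b => Int.cast_injective (α := ℂ) (by
      rw [Int.cast_add, ← h.cast_R hr a b, h.cast_A a]; push_cast; rw [n1, m1]
      linear_combination (-9 * sm 3 z (χ : G → ℂ) ψ - 9 * sm 3 z⁻¹ (χ : G → ℂ) ψ * (ω ^ 2 - ω + 1)) * hω)
  have a2 : ∀ χ ∈ K G M, A M χ χ = 9 - ∑ u ∈ U, D u χ * D u χ + 6 * n χ χ := fun χ a => by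
    have : m χ χ = n χ χ := Int.cast_injective (α := ℂ) (by
      rw [m1, ← map_intCast (starRingEnd ℂ), n1]; simp [conj_sm, conj_regInner, c, map_ofNat])
    rw [a1 χ a χ a, if_pos rfl, this]; ring
  have p : ∀ χ ∈ K G M, 0 < A M χ χ := fun χ a => contr_self_pos (mem_K.1 a)
  have a3 : ∀ χ ∈ K1 G M, n χ χ = 0 := fun χ a => by
    have b := (mem_filter.1 a).1
    have := a2 χ b
    have := p χ b
    have := (h.dvd_iff a b).2 a
    have : A M χ χ < 27 := (contr_self_lt (p := 3) (M := M) Block.isPBlock_principalBlock (by rw [h.defect]; decide)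
      (mem_K.1 b)).trans_eq (by rw [h.defect]; rfl)
    rw [h.R_one hr a] at *
    omega
  have a4 : ∀ ψ ∈ K0 G M, ∀ χ ∈ K1 G M, A M ψ χ = 3 * (n ψ χ + m ψ χ) ∧ n ψ χ + m ψ χ ≠ 0 := fun ψ a χ b => by
    have := a1 ψ (mem_filter.1 a).1 χ (mem_filter.1 b).1
    rw [if_neg (by rintro rfl; exact (mem_filter.1 b).2 (mem_filter.1 a).2), sum_eq_zero fun u c => by
      rw [h.D_zero hr c b, mul_zero], sub_zero, zero_add] at this
    exact ⟨this, fun e => h.A_ne b a (by rwa [e, A, contr_comm ψ.2.isGeneralizedCharacter χ.2.isGeneralizedCharacter] at this)⟩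
  have a5 : ∀ ψ ∈ K0 G M, ∀ u ∈ U, 1 ≤ D u ψ * D u ψ := fun ψ a u b => mul_self_pos.2 fun e : D u ψ = 0 =>
    (mem_filter.1 ((h.dvd_D hr b (mem_filter.1 a).1).1 (e ▸ dvd_zero _))).2 (mem_filter.1 a).2
  have a6 := h.card_eq (M := M)
  have a7 := blockRank_pos (p := 3) (M := M) (G := G) Block.isPBlock_principalBlock
  rw [card_K] at a6
  rcases h.cases (M := M) hr hu with ⟨a, b⟩ | ⟨a, ψ, b, d⟩
  · have := h.k1_le hr hu b fun χ c => by rw [a2 χ (mem_filter.1 c).1, h.R_one hr c, a3 χ c]; rfl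
    obtain ⟨v, d, e⟩ := exists_mem_ne (s := U) (by omega) u
    have f := odd_sum (s := fun χ => D u χ * D v χ) fun χ c => by
      simpa [((h.cases (M := M) hr d).resolve_right (by omega)).2 χ c] using par (b χ c) (D v χ)
    have g := sum_principal_mul_conj_pElt (M := M) ⟨1, h.ordU u hu⟩ ⟨1, h.ordU v d⟩
    rw [if_neg fun i => e ((h.rep v ⟨1, h.ordU v d⟩).unique ⟨by simp [d], .refl _⟩ ⟨by simp [hu], i⟩)] at g
    replace g : ∑ χ ∈ K G M, D u χ * D v χ = 0 := Int.cast_injective (α := ℂ) (by simpa [h.cD hr hu, h.cD hr d] using g)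
    rw [← h.sum_D hr hu, g] at f
    simp [a] at f
  refine ⟨a, le_antisymm ?_ ?_⟩
  · have e := n2 ψ (mem_filter.1 b).1
    have f := m2 ψ (mem_filter.1 b).1
    have g := card_nsmul_le_sum (K1 G M) (fun χ => n ψ χ ^ 2 + m ψ χ ^ 2) 1 fun χ c => by
      have := (a4 ψ b χ c).2
      rcases eq_or_ne (n ψ χ) 0 with e | e
      · nlinarith [sq_pos_of_ne_zero (show m ψ χ ≠ 0 by simpa [e] using this), sq_nonneg (n ψ χ)]
      · nlinarith [sq_pos_of_ne_zero e, sq_nonneg (m ψ χ)]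
    have i := card_nsmul_le_sum (U.erase u) _ 1 fun v c => a5 ψ b v (mem_of_mem_erase c)
    rw [← add_sum_erase _ _ hu, ← sq, d, sum_K] at e f
    have j := sum_nonneg fun χ (_ : χ ∈ K0 G M) => sq_nonneg (n ψ χ)
    have k := sum_nonneg fun χ (_ : χ ∈ K0 G M) => sq_nonneg (m ψ χ)
    have l := card_erase_add_one hu
    simp only [sum_add_distrib, nsmul_eq_mul] at g i
    omega
  · have e : ∀ ψ ∈ K0 G M, 0 ≤ n ψ ψ := fun ψ b => by
      have e := a2 ψ (mem_filter.1 b).1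
      have f := h.sum_sq (mem_filter.1 b).1
      have g := card_nsmul_le_sum (K1 G M) (fun χ => A M ψ χ ^ 2) 9 fun χ c => by
        rw [(a4 ψ b χ c).1]; nlinarith [sq_pos_of_ne_zero (a4 ψ b χ c).2]
      have i := card_nsmul_le_sum U _ 1 (a5 ψ b)
      have j := single_le_sum (f := fun χ => A M ψ χ ^ 2) (fun _ _ => sq_nonneg _) b
      have k := sq_pos_of_pos (p ψ (mem_filter.1 b).1)
      have l := card_pos.2 ⟨u, hu⟩
      rw [sum_K] at f
      simp only [nsmul_eq_mul] at g i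
      omega
    have f := h.trace (M := M)
    have g := sum_nonneg e
    rw [sum_congr rfl a2, sum_K, sum_congr (s₁ := K1 G M) (g := fun _ => 9) rfl fun χ c => by
      rw [h.R_one hr c, a3 χ c]; rfl, sum_add_distrib, h.sum_R hr, ← mul_sum] at f
    simp only [sum_const, nsmul_eq_mul] at f
    omega

end Hyp

end Cfsg.Lib.B27
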