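import Cfsg.Agent.Lib.B27.Core
import Cfsg.Agent.Lib.Transfer.Criteria

/-! Fusion in an extraspecial Sylow subgroup of order `27` whose normalizer centralizes its centre. -/

set_option autoImplicit false

namespace Cfsg.Lib.B27

open Finset Cfsg.Lib.Char Cfsg.Lib.Modular Cfsg.Lib.Transfer Subgroup

variable {G : Type*} [Group G] [Finite G] {P : Subgroup G} {z u g t x : G}

/-- The hypotheses on the Sylow subgroup. -/
structure Es (P : Subgroup G) (z : G) : Prop where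
  card : Nat.card P = 27
  syl : ¬ 3 ∣ P.index
  exp : ∀ x ∈ P, x ^ 3 = 1
  mem : z ∈ P
  ne : z ≠ 1
  cen : ∀ x ∈ P, (∀ y ∈ P, Commute y x) → x ∈ zpowers z
  com : ∀ x ∈ P, ∀ y ∈ P, x * y * x⁻¹ * y⁻¹ ∈ zpowers z
  nc : ∀ g ∈ normalizer (P : Set G), Commute g z

/-- The index of `P C(P)` in `N(P)`. -/
noncomputable abbrev ii (P : Subgroup G) : ℕ := (P ⊔ centralizer (P : Set G)).relIndex (normalizer (P : Set G))

omit [Finite G] in
theorem cj (e : Commute g z) (hx : x ∈ zpowers z) : g * x * g⁻¹ ∈ zpowers z := by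
  obtain ⟨k, rfl⟩ := hx; simp [(e.zpow_right k).eq]

/-- The elements centralizing `z` and `x` modulo `z`. -/
def Lz (z x : G) : Subgroup G where
  carrier := {l | Commute l z ∧ l * x * l⁻¹ * x⁻¹ ∈ zpowers z}
  one_mem' := by simp
  mul_mem' := fun ⟨a, b⟩ ⟨c, d⟩ => ⟨a.mul_left c, by convert mul_mem (cj a d) b using 1; group⟩
  inv_mem' := fun ⟨a, b⟩ => ⟨a.inv_left, by convert cj a.inv_left (inv_mem b) using 1; group⟩

theorem ncard_orb (H : Subgroup G) (w : G) : {u | ∃ g ∈ H, g * w * g⁻¹ = u}.ncard = (centralizer {w}).relIndex H := by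
  let _ : MulAction H G := MulAction.compHom G ((MulAut.conj (G := G)).comp H.subtype)
  have e : MulAction.stabilizer H w = (centralizer {w}).subgroupOf H :=
    Subgroup.ext fun g => mul_inv_eq_iff_eq_mul.trans mem_centralizer_singleton_iff.symm
  rw [relIndex, ← e, MulAction.index_stabilizer]
  exact congrArg _ (Set.ext fun u => ⟨fun ⟨g, hg, e⟩ => ⟨⟨g, hg⟩, e⟩, fun ⟨g, e⟩ => ⟨g, g.2, e⟩⟩)

omit [Finite G] in
theorem X_le : P ⊔ centralizer (P : Set G) ≤ normalizer (P : Set G) := sup_le le_normalizer (centralizer_le_normalizer _)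

namespace Es
variable (h : Es P z)
include h

omit [Finite G] in
theorem ord : orderOf z = 3 := orderOf_eq_prime (h.exp z h.mem) h.ne

omit [Finite G] in
theorem pg : IsPGroup 3 P := .of_card (n := 3) h.card

omit [Finite G] in
theorem rel {K : Subgroup G} (hK : P ≤ K) : ¬ 3 ∣ P.relIndex K := fun e => h.syl (e.trans (relIndex_dvd_index_of_le hK))

omit [Finite G] in
theorem zle : zpowers z ≤ P := zpowers_le.2 h.mem

omit [Finite G] in
theorem cz (hx : x ∈ zpowers z) (hg : g ∈ normalizer (P : Set G)) : Commute g x := by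
  obtain ⟨k, rfl⟩ := hx; exact (h.nc g hg).zpow_right k

omit [Finite G] in
theorem cz' (hx : x ∈ zpowers z) (hg : g ∈ P) : Commute g x := h.cz hx (le_normalizer hg)

theorem gen (hx : x ∈ zpowers z) (h1 : x ≠ 1) : z ∈ zpowers x := by
  have : Fact (Nat.card (zpowers z)).Prime := ⟨by rw [Nat.card_zpowers, h.ord]; exact Nat.prime_three⟩
  exact (eq_of_le_of_card_ge (zpowers_le.2 hx) (by
    rw [Nat.card_zpowers, Nat.card_zpowers, h.ord, orderOf_eq_prime (h.exp x (h.zle hx)) h1])).ge (mem_zpowers z)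

theorem mem_iff : x ∈ zpowers z ↔ x = 1 ∨ x = z ∨ x = z⁻¹ := by
  refine ⟨fun a => ?_, by rintro (rfl | rfl | rfl) <;> simp⟩
  obtain ⟨k, rfl⟩ := mem_powers_iff_mem_zpowers.2 a
  have := Nat.mod_lt k three_pos
  simp only [← pow_mod_orderOf z k, h.ord]
  interval_cases k % 3
  · simp
  · simp
  · exact .inr (.inr (eq_inv_of_mul_eq_one_left (by rw [← pow_succ, h.exp z h.mem])))

theorem exists_hom (hu : u ∈ P) (hz : u ∉ zpowers z) :
    ∃ φ : P →* G, (∀ a, φ a = a * u * a⁻¹ * u⁻¹) ∧ φ.range = zpowers z := by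
  let φ : P →* G := MonoidHom.mk' (fun a => a * u * a⁻¹ * u⁻¹) fun a b => by
    have := (h.cz' (h.com _ b.2 _ hu) (mul_mem (mul_mem hu (inv_mem a.2)) (inv_mem hu))).eq
    simp only [Subgroup.coe_mul, mul_inv_rev, InvMemClass.coe_inv, mul_assoc] at this ⊢
    rw [this]; simp
  refine ⟨φ, fun _ => rfl, le_antisymm (by rintro _ ⟨a, rfl⟩; exact h.com _ a.2 _ hu) ?_⟩
  obtain ⟨a, b, c⟩ : ∃ a ∈ P, ¬ Commute a u := by simpa using mt (h.cen u hu) hz
  exact zpowers_le.2 (zpowers_le.2 (show _ ∈ φ.range from ⟨⟨a, b⟩, rfl⟩)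
    (h.gen (h.com _ b _ hu) fun e => c (commutatorElement_eq_one_iff_commute.1 e)))

theorem conj (hu : u ∈ P) (hz : u ∉ zpowers z) (hx : x ∈ zpowers z) : ∃ a ∈ P, a * u * a⁻¹ = x * u := by
  obtain ⟨φ, h1, h2⟩ := h.exists_hom hu hz
  obtain ⟨a, rfl⟩ := h2.ge hx
  exact ⟨a, a.2, by simp [h1]⟩

theorem idx (hu : u ∈ P) (hz : u ∉ zpowers z) : (centralizer {u}).relIndex P = 3 := by
  obtain ⟨φ, h1, h2⟩ := h.exists_hom hu hz
  rw [← h.ord, ← Nat.card_zpowers, ← h2, ← index_ker, relIndex]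
  congr 1; ext a
  simp [mem_subgroupOf, mem_centralizer_singleton_iff, h1, mul_inv_eq_iff_eq_mul]

theorem cardV (hu : u ∈ P) (hz : u ∉ zpowers z) : Nat.card ↥(P ⊓ centralizer {u}) = 9 := by
  have := card_mul_relIndex (inf_le_left : P ⊓ centralizer {u} ≤ P)
  rw [inf_relIndex_left, h.idx hu hz, h.card] at this
  omega

theorem V_le (hu : u ∈ P) (hz : u ∉ zpowers z) {W : Subgroup G} (h1 : z ∈ W) (h2 : u ∈ W) : P ⊓ centralizer {u} ≤ W := by
  have a := card_dvd_of_le (inf_le_left : P ⊓ centralizer {u} ⊓ W ≤ _)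
  have b := card_lt_of_lt (H := zpowers z) (K := P ⊓ centralizer {u} ⊓ W) ⟨zpowers_le.2 ⟨⟨h.mem,
    mem_centralizer_singleton_iff.2 (h.cz' (mem_zpowers z) hu).symm⟩, h1⟩, fun e => hz (e ⟨⟨hu, (selfC u).2⟩, h2⟩)⟩
  rw [h.cardV hu hz] at a
  rw [Nat.card_zpowers, h.ord] at b
  refine inf_eq_left.1 (eq_of_le_of_card_ge inf_le_left ?_)
  have := Nat.le_of_dvd (by norm_num) a
  rw [h.cardV hu hz]
  generalize Nat.card _ = n at *
  interval_cases n <;> simp_all

theorem norm_z (ht : t * z * t⁻¹ ∈ zpowers z) : Commute t z := by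
  obtain ⟨k, e⟩ := h.gen ht (by simpa using h.ne)
  obtain ⟨c, a, b⟩ := exists_conj_le_of_not_dvd_relIndex' (h.rel (K := centralizer {z}) fun y hy =>
    mem_centralizer_singleton_iff.2 (h.cz' (mem_zpowers z) hy)) (isPGroup_conj h.pg t) (conj_le_iff.2 fun y hy =>
      mem_centralizer_singleton_iff.2 (e ▸ ((h.cz' (mem_zpowers z) hy).map (MulAut.conj t)).zpow_right k))
  rw [conj_conj] at b
  simpa using (show Commute c z from mem_centralizer_singleton_iff.1 a).inv_left.mul_left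
    (h.nc _ (mem_normalizer_of_conj_le b))

theorem isol (hg : g * z * g⁻¹ ∈ P) : Commute g z := by
  by_contra n
  have a := mt h.norm_z n
  have o := h.exp z h.mem
  obtain ⟨c, b, d⟩ := exists_conj_le_of_not_dvd_relIndex' (h.rel (K := centralizer {z}) fun y hy =>
    mem_centralizer_singleton_iff.2 (h.cz' (mem_zpowers z) hy)) (isPGroup_conj (h.pg.to_le h.zle) g⁻¹) (by
      rw [conj_zpowers, zpowers_le, mem_centralizer_singleton_iff]
      simpa [mul_assoc] using ((h.cz' (mem_zpowers z) hg).map (MulAut.conj g⁻¹)).symm.eq)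
  replace b : Commute c z := mem_centralizer_singleton_iff.1 b
  rw [conj_conj, conj_zpowers, zpowers_le] at d
  obtain ⟨r, r1, r2⟩ := h.conj d (fun e => n (by simpa using (b.inv_left.mul_left (h.norm_z e)).inv_left)) (mem_zpowers z)
  obtain ⟨s, s1, s2⟩ := h.conj hg a (mem_zpowers z)
  have y3 := h.exp _ hg
  have yz := h.cz' (mem_zpowers z) hg
  have e1 : MulAut.conj ((c * g⁻¹)⁻¹ * r * (c * g⁻¹)) z = g * z * g⁻¹ * z := by
    have := congrArg (MulAut.conj (c * g⁻¹)⁻¹) r2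
    simpa [mul_assoc, b.inv_left.left_comm] using this
  have e2 : MulAut.conj ((c * g⁻¹)⁻¹ * r * (c * g⁻¹)) (g * z * g⁻¹) = g * z * g⁻¹ := by
    simp [mul_assoc, b.left_comm, (h.cz' (mem_zpowers z) r1).left_comm, b.inv_left.left_comm]
  have e3 : MulAut.conj s z = z := by simp [(h.cz' (mem_zpowers z) s1).eq]
  generalize (c * g⁻¹)⁻¹ * r * (c * g⁻¹) = q, g * z * g⁻¹ = y at *
  have e : MulAut.conj (s * q * s * q) z = z⁻¹ := by
    simp only [map_mul, MulAut.mul_apply, e1, e2, e3, show MulAut.conj s y = z * y from s2]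
    refine eq_inv_of_mul_eq_one_left ?_
    rw [show (1 : G) = z ^ 3 * z ^ 3 * y ^ 3 by simp [o, y3]]
    simp [pow_succ, mul_assoc, yz.eq, yz.left_comm]
  have := (h.norm_z (t := s * q * s * q) (e ▸ inv_mem (mem_zpowers z) :)).eq
  rw [MulAut.conj_apply, this, mul_inv_cancel_right, eq_inv_iff_mul_eq_one, ← sq] at e
  simpa [h.ord] using orderOf_dvd_of_pow_eq_one e

theorem not_mem (hz : u ∉ zpowers z) (hg : Commute g z) : g * u * g⁻¹ ∉ zpowers z := fun ⟨k, e⟩ => hz ⟨k, by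
  simpa [mul_assoc, (hg.zpow_right k).symm.eq] using congrArg (MulAut.conj g⁻¹) e⟩

theorem sylV (hu : u ∈ P) (hz : u ∉ zpowers z) : ¬ 3 ∣ (P ⊓ centralizer {u}).relIndex (centralizer {u}) := by
  refine not_dvd_relIndex_of_maximal inf_le_right (h.pg.to_le inf_le_left) fun Q a b c => ?_
  obtain ⟨g, d⟩ := exists_conj_le_of_not_dvd_index h.syl a
  have e := h.isol (conj_le_iff.1 d z (b ⟨h.mem, mem_centralizer_singleton_iff.2 (h.cz' (mem_zpowers z) hu).symm⟩))
  refine (eq_of_le_of_card_ge b ?_).ge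
  rw [h.cardV hu hz, ← h.cardV (conj_le_iff.1 d u (b ⟨hu, (selfC u).2⟩)) (h.not_mem hz e), ← card_conj g]
  exact card_le_of_le (le_inf d (conj_le_iff.2 fun y hy => mem_centralizer_singleton_iff.2
    ((show Commute y u from mem_centralizer_singleton_iff.1 (c hy)).map (MulAut.conj g))))

theorem fus (hx : x ∈ P) (hg : g * x * g⁻¹ ∈ P) : ∃ n ∈ normalizer (P : Set G), n * x * n⁻¹ = g * x * g⁻¹ := by
  have k : ∀ {x g}, x ∈ zpowers z → g * x * g⁻¹ ∈ P → g * x * g⁻¹ = x := fun {x g} a b => by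
    rcases eq_or_ne x 1 with rfl | c
    · simp
    obtain ⟨k, rfl⟩ := a
    have := h.isol (conj_le_iff.1 (conj_zpowers g _ ▸ zpowers_le.2 b) z (h.gen ⟨k, rfl⟩ c))
    simp [(this.zpow_right k).eq]
  by_cases a : x ∈ zpowers z
  · exact ⟨1, one_mem _, by simp [k a hg]⟩
  have b : g * x * g⁻¹ ∉ zpowers z := fun b => a (by
    have := k (g := g⁻¹) b (by simpa [mul_assoc])
    rw [← this] at b; simpa [mul_assoc] using b)
  obtain ⟨c, d, e⟩ := exists_conj_le_of_not_dvd_relIndex' (h.sylV hg b) (isPGroup_conj (h.pg.to_le h.zle) g) (by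
    rw [conj_zpowers, zpowers_le, mem_centralizer_singleton_iff]
    exact ((h.cz' (mem_zpowers z) hx).map (MulAut.conj g)).symm.eq)
  rw [conj_conj, conj_zpowers, zpowers_le] at e
  replace e := h.isol e.1
  have f : c * g * x * (c * g)⁻¹ = g * x * g⁻¹ := by
    simpa [mul_assoc, mul_inv_eq_iff_eq_mul] using congrArg (· * c⁻¹) (mem_centralizer_singleton_iff.1 d)
  obtain ⟨l, i, j⟩ := exists_conj_le_of_not_dvd_relIndex' (h.rel (K := Lz z (g * x * g⁻¹)) fun y hy =>
    ⟨h.cz' (mem_zpowers z) hy, h.com _ hy _ hg⟩) (isPGroup_conj h.pg (c * g)) (conj_le_iff.2 fun y hy =>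
      ⟨(e.mul_left (h.cz' (mem_zpowers z) hy)).mul_left e.inv_left, by
        convert cj e (h.com _ hy _ hx) using 1; rw [← f]; group⟩)
  obtain ⟨r, m, o⟩ := h.conj hg b i.2
  rw [conj_conj] at j
  refine ⟨r⁻¹ * (l * (c * g)), mul_mem (inv_mem (le_normalizer m)) (mem_normalizer_of_conj_le j), ?_⟩
  rw [inv_mul_cancel_right, ← f] at o
  rw [← f]
  simpa [mul_assoc] using congrArg (MulAut.conj r⁻¹) o.symm

theorem npc (hu : u ∈ P) (hz : u ∉ zpowers z) : HasNormalPComplement 3 (centralizer ({u} : Set G)) :=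
  hasNormalPComplement_subgroup_of_normalizer_le (h.pg.to_le inf_le_left) (h.sylV hu hz) inf_le_right fun g ⟨a, b⟩ y c =>
    mem_centralizer_singleton_iff.1 (h.V_le hu hz (W := centralizer {g}) (mem_centralizer_singleton_iff.2 (h.isol
      ((mem_normalizer_iff.1 b z).1 ⟨h.mem, mem_centralizer_singleton_iff.2 (h.cz' (mem_zpowers z) hu).symm⟩).1).symm)
        (mem_centralizer_singleton_iff.2 (mem_centralizer_singleton_iff.1 a).symm) c)

theorem cc (hu : u ∈ P) (hz : u ∉ zpowers z) : (Nat.card (centralizer ({u} : Set G))).factorization 3 = 2 := by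
  rw [← card_mul_relIndex (inf_le_right : P ⊓ _ ≤ _), h.cardV hu hz, Nat.factorization_mul (by norm_num)
    fun e => h.sylV hu hz (by rw [e]; simp), Finsupp.add_apply, Nat.factorization_eq_zero_of_not_dvd (h.sylV hu hz)]
  simpa using Nat.prime_three.factorization_pow (k := 2) ▸ by simp

theorem memX (hu : u ∈ P) (hz : u ∉ zpowers z) (ht : t ∈ normalizer (P : Set G)) (e : t * u * t⁻¹ * u⁻¹ ∈ zpowers z) :
    t ∈ P ⊔ centralizer (P : Set G) := by
  obtain ⟨a, b, c⟩ := h.conj hu hz e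
  suffices ∀ t ∈ normalizer (P : Set G), Commute t u → t ∈ P ⊔ centralizer (P : Set G) by
    simpa using mul_mem (mem_sup_left b) (this _ (mul_mem (inv_mem (le_normalizer b)) ht) (by
      rw [inv_mul_cancel_right] at c
      rw [commute_iff_eq, ← mul_inv_eq_iff_eq_mul, mul_inv_rev, inv_inv, show a⁻¹ * t * u * (t⁻¹ * a) =
        a⁻¹ * (t * u * t⁻¹) * a by group, ← c]; group))
  intro t ht e
  have k : t ^ 3 ∈ centralizer (P : Set G) := fun y hy => by
    have f := (mem_normalizer_iff.1 ht y).1 hy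
    have v : t * y * t⁻¹ * y⁻¹ ∈ P ⊓ centralizer {u} := by
      refine ⟨P.mul_mem f (P.inv_mem hy), mem_centralizer_singleton_iff.2 ?_⟩
      have a := (h.cz (h.com _ (P.inv_mem hy) _ hu) ht).inv_left.mul_inv_cancel
      calc _ = t * y * (t⁻¹ * (y⁻¹ * u * y⁻¹⁻¹ * u⁻¹) * t⁻¹⁻¹) * (t⁻¹ * u * t⁻¹⁻¹) * t⁻¹ * y⁻¹ := by group
        _ = t * u * t⁻¹ * (t * y * t⁻¹ * y⁻¹) := by rw [a, e.inv_left.mul_inv_cancel]; group
        _ = _ := by rw [e.mul_inv_cancel]
    have c : Commute (t * y * t⁻¹ * y⁻¹) t := mem_centralizer_singleton_iff.1 (h.V_le hu hz (W := centralizer {t})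
      (mem_centralizer_singleton_iff.2 (h.nc t ht).symm) (mem_centralizer_singleton_iff.2 e.symm) v)
    have := h.exp _ v.1
    generalize i : t * y * t⁻¹ * y⁻¹ = w at c this
    replace i : t * y = w * y * t := by simp [← i]
    rw [← one_mul (y * _), ← this]
    simp only [pow_succ, pow_zero, one_mul, mul_assoc, i, c.symm.left_comm]
    simp only [← mul_assoc t y, i, mul_assoc, c.symm.left_comm]
  rw [← pPart_mul_regPart 3 t]
  refine mul_mem (mem_sup_left ?_) (mem_sup_right ?_)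
  · exact (eq_of_not_dvd_relIndex_of_le (h.rel le_top) (h.pg.to_sup_of_normal_left' (isPGroup_zpowers Nat.prime_three
      (pElt_pPart Nat.prime_three t)) (zpowers_le.2 (pPart_mem 3 ht))) le_top le_sup_left).ge (mem_sup_right (mem_zpowers _))
  · obtain ⟨j, e⟩ := regPart_mem_zpowers 3 t
    refine zpowers_le.2 (show regPart 3 t ^ 3 ∈ _ from e ▸ ?_) (mem_zpowers_pow_iff.2 ((Nat.Prime.coprime_iff_not_dvd
      Nat.prime_three).2 (not_dvd_orderOf_regPart Nat.prime_three t)))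
    rw [← zpow_natCast, ← zpow_mul, mul_comm, zpow_mul, zpow_natCast]; exact zpow_mem k j

theorem real (e : 2 ∣ ii P) (hu : u ∈ P) (hz : u ∉ zpowers z) : IsConj u u⁻¹ := by
  have : ((P ⊔ centralizer (P : Set G)).subgroupOf (normalizer (P : Set G))).Normal :=
    normal_subgroupOf_of_le_normalizer fun n a => conj_eq_self_iff.1 (by
      rw [conj_sup, conj_centralizer, conj_eq_self_iff.2 a])
  obtain ⟨t, a⟩ := exists_prime_orderOf_dvd_card' 2 e
  obtain ⟨⟨t, b⟩, rfl⟩ := QuotientGroup.mk_surjective t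
  have c : t ∉ P ⊔ centralizer (P : Set G) := fun c => by
    rw [(QuotientGroup.eq_one_iff _).2 (mem_subgroupOf.2 c)] at a; simp at a
  obtain ⟨r, d, s, f, i⟩ := exists_mul_of_mem_sup' (le_normalizer.trans (normalizer_le_normalizer_centralizer' P))
    (sup_comm P _ ▸ mem_subgroupOf.1 ((QuotientGroup.eq_one_iff _).1
      ((QuotientGroup.mk_pow _ _ 2).trans (a ▸ pow_orderOf_eq_one _))))
  have j := (mem_normalizer_iff.1 b u).1 hu
  have k : u * (t * u * t⁻¹) ∈ zpowers z := by_contra fun k => c (h.memX (mul_mem hu j) k b (by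
    have := mul_mem (h.com _ j _ hu) (cj (h.cz' (mem_zpowers z) (mul_mem hu j)) (h.com _ d _ hu))
    have l : t * t * u * (t * t)⁻¹ = r * u * r⁻¹ := by
      rw [← sq, show t ^ 2 = _ from i, mul_assoc r, ← f u hu]; group
    have m := (h.cz' (h.com _ d _ hu) hu).eq
    convert this using 1
    calc _ = t * u * t⁻¹ * (t * t * u * (t * t)⁻¹) * (u * (t * u * t⁻¹))⁻¹ := by group
      _ = t * u * t⁻¹ * (r * u * r⁻¹ * u⁻¹ * u) * (u * (t * u * t⁻¹))⁻¹ := by rw [l]; group
      _ = _ := by rw [← m]; group))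
  obtain ⟨o, -, q⟩ := h.conj (inv_mem hu) (by simpa) k
  rw [← (h.cz' k (inv_mem hu)).eq, inv_mul_cancel_left] at q
  exact (isConj_iff.2 ⟨t, rfl⟩).trans (isConj_iff.2 ⟨o, q⟩).symm

theorem orb (hu : u ∈ P) (hz : u ∉ zpowers z) : (centralizer {u}).relIndex (normalizer (P : Set G)) = 3 * ii P := by
  rw [← inf_relIndex_right, ← relIndex_mul_relIndex _ _ _ (fun t (a : t ∈ centralizer {u} ⊓ normalizer (P : Set G)) =>
    h.memX hu hz a.2 (by
    simp [mem_centralizer_singleton_iff.1 a.1])) X_le, ← inf_relIndex_right, inf_assoc, inf_eq_right.2 X_le,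
    inf_relIndex_right, ← h.idx hu hz, ← ncard_orb, ← ncard_orb]
  congr 2; ext y
  refine ⟨fun ⟨g, a, b⟩ => ?_, fun ⟨g, a, b⟩ => ⟨g, mem_sup_left a, b⟩⟩
  obtain ⟨r, d, s, f, rfl⟩ := exists_mul_of_mem_sup' (le_normalizer.trans (normalizer_le_normalizer_centralizer' P))
    (sup_comm P _ ▸ a)
  exact ⟨r, d, by rw [← b, mul_assoc r s, ← f u hu]; group⟩

theorem eq_of_conj (hx : x ∈ zpowers z) (hu : u ∈ P) (c : IsConj x u) : x = u := by
  obtain ⟨g, rfl⟩ := isConj_iff.1 c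
  obtain ⟨n, a, b⟩ := h.fus (h.zle hx) hu
  rw [← b, (h.cz hx a).mul_inv_cancel]

theorem fact : (Nat.card G).factorization 3 = 3 := by
  rw [← P.card_mul_index, h.card, Nat.factorization_mul (by norm_num) index_ne_zero_of_finite, Finsupp.add_apply,
    Nat.factorization_eq_zero_of_not_dvd h.syl]
  simpa using Nat.prime_three.factorization_pow (k := 3) ▸ by simp

theorem exists_hyp : ∃ U : Finset G, Hyp z U ∧ #U * ii P = 8 ∧ ∀ u ∈ U, u ∈ P ∧ u ∉ zpowers z := by
  classical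
  have := Fintype.ofFinite G
  let S : Finset G := {x | x ∈ P ∧ x ∉ zpowers z}
  obtain ⟨U, a, b, c⟩ := exists_subset_injOn_image_eq_of_surjOn (f := ConjClasses.mk) (S : Set G) (S.image ConjClasses.mk)
    (by simp [Set.SurjOn])
  have d : ∀ u ∈ U, u ∈ P ∧ u ∉ zpowers z := fun u e => by simpa [S] using a e
  have e : ∀ x, x ∈ insert 1 (insert z (insert z⁻¹ U)) ↔ x ∈ zpowers z ∨ x ∈ U := by simp [h.mem_iff, or_assoc]
  have f : ∀ {x}, x ∈ zpowers z ∨ x ∈ U → x ∈ P := fun i => i.elim (h.zle ·) fun i => (d _ i).1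
  refine ⟨U, ⟨h.fact, h.ord, fun u i => orderOf_eq_prime (h.exp u (d u i).1) fun j => (d u i).2 (j ▸ one_mem _),
    fun g i => existsUnique_of_exists_of_unique ?_ fun x y j k => ?_, fun i => (d _ i).2 (mem_zpowers z),
      fun i => (d _ i).2 (by simp), fun u i => h.npc (d u i).1 (d u i).2, fun u i => h.cc (d u i).1 (d u i).2⟩, ?_, d⟩
  · obtain ⟨t, j⟩ := exists_conj_le_of_not_dvd_index h.syl (isPGroup_zpowers Nat.prime_three i)
    rw [conj_zpowers, zpowers_le] at j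
    by_cases k : t * g * t⁻¹ ∈ zpowers z
    · exact ⟨_, (e _).2 (.inl k), isConj_iff.2 ⟨t, rfl⟩⟩
    obtain ⟨u, l, m⟩ := mem_image.1 (c.ge (mem_image_of_mem ConjClasses.mk (show t * g * t⁻¹ ∈ S by simp [S, j, k])))
    exact ⟨u, (e _).2 (.inr l), (isConj_iff.2 ⟨t, rfl⟩).trans (ConjClasses.mk_eq_mk_iff_isConj.1 m).symm⟩
  · rw [e] at j k
    have l := j.2.symm.trans k.2
    exact j.1.elim (h.eq_of_conj · (f k.1) l) fun m => k.1.elim (fun n => (h.eq_of_conj n (f j.1) l.symm).symm) fun n =>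
      b m n (ConjClasses.mk_eq_mk_iff_isConj.2 l)
  have i := card_eq_sum_card_image ConjClasses.mk S
  have j : #S + 3 = 27 := by
    rw [← h.ord, ← Nat.card_zpowers, ← h.card, Nat.card_eq_fintype_card, Nat.card_eq_fintype_card, Fintype.card_subtype,
      Fintype.card_subtype, ← card_filter_add_card_filter_not (s := {x | x ∈ P}) (· ∈ zpowers z), add_comm, filter_filter,
      filter_filter]
    congr 2; ext; simpa using fun a => h.zle a
  rw [sum_const_nat (m := 3 * ii P), ← c, card_image_of_injOn b] at i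
  · nlinarith
  simp only [mem_image]
  rintro _ ⟨u, k, rfl⟩
  simp only [S, mem_filter, mem_univ, true_and] at k
  rw [← h.orb k.1 k.2, ← ncard_orb, ← Set.ncard_coe_finset]
  congr 1; ext y
  simp only [S, coe_filter, mem_filter, mem_univ, true_and, Set.mem_setOf, ConjClasses.mk_eq_mk_iff_isConj]
  refine ⟨fun ⟨l, m⟩ => ?_, ?_⟩
  · obtain ⟨g, rfl⟩ := isConj_iff.1 m.symm
    exact h.fus k.1 l.1
  · rintro ⟨n, l, rfl⟩
    exact ⟨⟨(mem_normalizer_iff.1 l u).1 k.1, h.not_mem k.2 (h.nc n l)⟩, (isConj_iff.2 ⟨n, rfl⟩).symm⟩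

theorem exists_theta : ∃ (Θ : G → ℂ) (ω : ℂ), ω ^ 2 + ω + 1 = 0 ∧ IsClassFunction G Θ ∧
    (∀ Q : Subgroup G, IsPGroup 3 Q → IsGeneralizedCharacter Q fun u => Θ u) ∧ Θ 1 = 3 ∧ Θ z = 3 * ω ∧
      Θ z⁻¹ = 3 * ω ^ 2 ∧ ∀ u ∈ P, u ∉ zpowers z → Θ u = 0 := by
  classical
  have := Fintype.ofFinite P
  obtain ⟨χ, a, b⟩ := exists_irr_apply_ne_of_ne_one (g := (⟨z, h.mem⟩ : P)) (by simpa using h.ne)
  obtain ⟨ω, c, d⟩ := exists_scalar_of_mem_center a (z := ⟨z, h.mem⟩)
    (mem_center_iff.2 fun y => Subtype.ext (h.cz' (mem_zpowers z) y.2))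
  rw [orderOf_mk, h.ord] at c
  have e := d 1
  have f : ω ≠ 1 := fun f => b (by simpa [f] using e)
  have i : χ ⟨z⁻¹, inv_mem h.mem⟩ = ω ^ 2 * χ 1 := by
    rw [show χ 1 = ω * _ by simpa using d (⟨z, h.mem⟩ : P)⁻¹, ← mul_assoc, ← pow_succ, c, one_mul]; rfl
  have j : ∀ x : P, x.1 ∉ zpowers z → χ x = 0 := fun x k => by
    obtain ⟨r, l, m⟩ := h.conj x.2 k (mem_zpowers z)
    have := (a.isClassFunction x ⟨r, l⟩).symm.trans ((congrArg χ (Subtype.ext m)).trans (d x))
    exact (mul_left_eq_self₀.1 this.symm).resolve_left f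
  have k : χ 1 = 3 := by
    have := card_mul_classInner χ χ
    have n := Complex.norm_eq_one_of_pow_eq_one c three_ne_zero
    have o : z ≠ z⁻¹ := fun e => by
      simpa [h.ord] using orderOf_dvd_of_pow_eq_one ((sq z).trans (eq_inv_iff_mul_eq_one.1 e))
    rw [a.inner_self, h.card, ← sum_subset (subset_univ {1, ⟨z, h.mem⟩, ⟨z⁻¹, inv_mem h.mem⟩}) fun x _ l => by
      rw [j x fun m => l (by
        rcases h.mem_iff.1 m with m | m | m <;> simp [← Subtype.coe_inj, m]), zero_mul], sum_insert (by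
      simp [← Subtype.coe_inj, h.ne, h.ne.symm]), sum_pair (by simpa), i, ← mul_one (⟨z, h.mem⟩ : P), e, a.isCharacter.apply_one_eq] at this
    simp only [Complex.mul_conj, Complex.normSq_eq_norm_sq, norm_mul, norm_pow, n, Complex.norm_natCast] at this
    rw [a.isCharacter.apply_one_eq]
    have : (27 : ℕ) = 3 * charDegree χ ^ 2 := by
      apply Nat.cast_injective (R := ℂ); push_cast at this ⊢; linear_combination this
    exact_mod_cast (Nat.pow_left_injective two_ne_zero (by simp only; omega) : charDegree χ = 3)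
  let Θ : G → ℂ := fun g => if h : ∃ x : P, IsConj g x then χ h.choose else 0
  have l : ∀ (g : G) (x : P), IsConj g x → Θ g = χ x := fun g x l => by
    have o : ∃ x : P, IsConj g x := ⟨x, l⟩
    have m := o.choose_spec.symm.trans l
    simp only [Θ, dif_pos o]
    generalize Exists.choose _ = y at *
    by_cases n : y.1 ∈ zpowers z
    · rw [Subtype.ext (h.eq_of_conj n x.2 m)]
    · rw [j y n, j x fun o => n (h.eq_of_conj o y.2 m.symm ▸ o)]
  refine ⟨Θ, ω, mul_left_cancel₀ (sub_ne_zero.2 f) (by linear_combination c), fun g t => ?_, fun Q m => ?_,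
    (l 1 1 (.refl _)).trans k, (l z ⟨z, h.mem⟩ (.refl _)).trans (by simpa [k, mul_comm] using e),
    (l _ ⟨_, inv_mem h.mem⟩ (.refl _)).trans (by rw [i, k, mul_comm]), fun u m n => (l u ⟨u, m⟩ (.refl _)).trans (j _ n)⟩
  · have m : IsConj g (t * g * t⁻¹) := isConj_iff.2 ⟨t, rfl⟩
    by_cases n : ∃ x : P, IsConj g x
    · exact n.elim fun x n => (l _ x (m.symm.trans n)).trans (l g x n).symm
    · simp only [Θ, dif_neg n, dif_neg fun o : ∃ x : P, IsConj (t * g * t⁻¹) x => n (o.imp fun _ => m.trans)]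
  · obtain ⟨t, n⟩ := exists_conj_le_of_not_dvd_index h.syl m
    convert a.isGeneralizedCharacter.comp ((inclusion n).comp (conjEquiv t Q).toMonoidHom) with u
    exact l _ _ (isConj_iff.2 ⟨t, rfl⟩)

theorem sub {H : Subgroup G} (hH : normalizer (P : Set G) ≤ H) :
    Es (P.subgroupOf H) ⟨z, hH (le_normalizer h.mem)⟩ ∧ ii (P.subgroupOf H) = ii P := by
  have a := le_normalizer.trans hH
  have b : ∀ {x : H}, x.1 ∈ zpowers z → x ∈ zpowers (⟨z, a h.mem⟩ : H) := fun ⟨k, e⟩ => ⟨k, Subtype.ext e⟩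
  refine ⟨⟨(Nat.card_congr (subgroupOfEquivOfLe a).toEquiv).trans h.card, h.rel a, fun x c => Subtype.ext (h.exp _ c), h.mem,
    by simpa using h.ne, fun x c d => b (h.cen _ c fun y e => congrArg Subtype.val (d ⟨y, a e⟩ e).eq),
    fun x c y d => b (h.com _ c _ d), fun g c => Subtype.ext (h.nc g (by rwa [← subgroupOf_normalizer_eq a] at c))⟩, ?_⟩
  rw [ii, ii, ← subgroupOf_normalizer_eq a, ← relIndex_subgroupOf hH, subgroupOf_sup a ((centralizer_le_normalizer _).trans hH)]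
  congr 2; ext g
  exact ⟨fun c y d => congrArg Subtype.val (c ⟨y, a d⟩ d), fun c y d => Subtype.ext (c y d)⟩

end Es

end Cfsg.Lib.B27
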