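import Cfsg.Agent.Lib.Block.StarInt
import Cfsg.Agent.Lib.Modular.Rank
import Cfsg.Agent.Lib.Modular.Principal
import Cfsg.Agent.Lib.Modular.CentralDefect

/-! Multiplying the characters of a block by functions of the `p`-part. -/

set_option autoImplicit false

namespace Cfsg.Lib.B27

open Finset Cfsg.Lib.Char Cfsg.Lib.Block Cfsg.Lib.Modular Subgroup
open scoped ComplexConjugate

variable {G : Type*} [Group G] [Fintype G] {p : ℕ} [hp : Fact p.Prime] {M : Ideal AlgInt} [Modular p M]
  {W W' θ φ : G → ℂ} {B : Set (IrrCharacter G)} {x : G}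

variable (p) in
/-- The product of `θ` with a function of the `p`-part. -/
noncomputable def wt (W θ : G → ℂ) : G → ℂ := fun g => W (pPart p g) * θ g

open Classical in
variable (p) in
/-- The contribution of the `p`-section of `x` to the inner product. -/
noncomputable def sm (x : G) (θ φ : G → ℂ) : ℂ := regInner p (secRes x θ) (secRes x φ)

variable (M) in
theorem star_eq_wt (W θ : G → ℂ) : Block.star (fun _ : Prs G p M => W) θ = wt p W θ := funext fun g => by
  rw [wt, ← congrFun (star_one (M := M) (p := p) θ) g, Block.star, Block.star, mul_sum]; simp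

theorem fam_const (hW : IsClassFunction G W) : Fam fun _ : Prs G p M => W :=
  ⟨fun x _ u _ => hW u x, fun _ _ _ _ _ => rfl⟩

omit hp [Fintype G] in
theorem isClassFunction_wt (hW : IsClassFunction G W) (hθ : IsClassFunction G θ) : IsClassFunction G (wt p W θ) :=
  fun g x => by rw [wt, wt, pPart_conj, hW, hθ]

theorem inSpan_wt (hB : IsPBlock M B) (hW : IsClassFunction G W) (h : InSpan B θ) (hθ : IsClassFunction G θ) :
    InSpan B (wt p W θ) := star_eq_wt M W θ ▸ InSpan.star h hB (fam_const hW) hθ

include M in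
theorem isGen_wt (hW : IsClassFunction G W) (h : ∀ Q : Subgroup G, IsPGroup p Q → IsGeneralizedCharacter Q fun u => W u)
    (hθ : IsGeneralizedCharacter G θ) : IsGeneralizedCharacter G (wt p W θ) :=
  star_eq_wt M W θ ▸ hθ.star (fam_const hW) fun ω => h _ ω.isPair.pgrp

theorem inner_wt (X : Finset G) (hX : ∀ x ∈ X, ∃ k : ℕ, orderOf x = p ^ k)
    (hr : ∀ g : G, (∃ k : ℕ, orderOf g = p ^ k) → ∃! x, x ∈ X ∧ IsConj g x) (hW : IsClassFunction G W)
    (hW' : IsClassFunction G W') (hθ : IsClassFunction G θ) (hφ : IsClassFunction G φ) :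
    classInner (wt p W θ) (wt p W' φ) = ∑ x ∈ X, W x * conj (W' x) * sm p x θ φ := by
  classical
  rw [classInner_eq_sum_regInner X hX hr (isClassFunction_wt hW hθ) (isClassFunction_wt hW' hφ)]
  refine sum_congr rfl fun x hx => ?_
  have k : ∀ (W θ : G → ℂ) (c : centralizer {x}), ¬ p ∣ orderOf c → secRes x (wt p W θ) c = (W x • secRes x θ) c :=
    fun W θ c hc => by
      rw [secRes_apply, wt, pPart_mul hp.out (hX x hx) (by rwa [orderOf_coe]) (commute_of_mem_centralizer c)]; rfl
  rw [regInner_congr (k W θ) (k W' φ), regInner_smul_left, regInner_smul_right, mul_assoc, sm]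

omit hp in
theorem conj_sm (x : G) (θ φ : G → ℂ) : conj (sm p x θ φ) = sm p x φ θ := by classical exact conj_regInner _ _

omit hp in
theorem sm_central (hx : x ∈ center G) {a b : ℂ} (h : ∀ g, θ (x * g) = a * θ g) (h' : ∀ g, φ (x * g) = b * φ g) :
    sm p x θ φ = a * conj b * regInner p θ φ := by
  classical
  have : ∀ (K : Subgroup G) [Fintype K], K = ⊤ → regInner p (fun c : K => θ c) (fun c => φ c) = regInner p θ φ := by
    rintro _ _ rfl; exact regInner_comp_equiv p topEquiv θ φ
  rw [← this _ (centralizer_eq_top_iff_subset.2 (Set.singleton_subset_iff.2 hx)), mul_assoc, ← regInner_smul_right,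
    ← regInner_smul_left, sm]
  congr 1 <;> ext c
  exacts [h c, h' c]

omit hp in
theorem sm_one : sm p 1 θ φ = regInner p θ φ := by
  simpa using sm_central (p := p) (θ := θ) (φ := φ) (a := 1) (b := 1) (one_mem _) (by simp) (by simp)

theorem sm_npc (hx : ∃ k : ℕ, orderOf x = p ^ k) (h : HasNormalPComplement p (centralizer ({x} : Set G)))
    {χ ψ : IrrCharacter G} (hχ : χ ∈ principalBlock M G) (hψ : ψ ∈ principalBlock M G) :
    sm p x χ ψ * p ^ (Nat.card (centralizer ({x} : Set G))).factorization p =
      (χ : G → ℂ) x * conj ((ψ : G → ℂ) x) := by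
  classical
  rw [← regInner_const_of_hasNormalPComplement h, Nat.cast_pow]
  congr 1
  exact regInner_congr (fun _ => principal_apply_mul Modular.out hx h hχ) fun _ => principal_apply_mul Modular.out hx h hψ

open Classical in
theorem sum_sm (hx : ∃ k : ℕ, orderOf x = p ^ k) : ∑ χ with χ ∈ principalBlock M G, sm p x (χ : G → ℂ) χ =
    blockRank p (principalBlock M (centralizer ({x} : Set G))) := by
  have h := isInducedBlock_principal_centralizer (M := M) Modular.out hx
  rw [← sum_eq_single_of_mem (s := univ.filter fun b : Blk _ M => IsInducedBlock M _ b.1 (principalBlock M G))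
    (f := fun b => (blockRank p b.1 : ℂ)) ⟨_, h.1⟩ (by simpa) fun b a c =>
      (c (Subtype.ext (eq_principal_of_isInducedBlock Modular.out (mem_filter.1 a).2))).elim]
  exact sum_regInner_secRes_self h.2.1 hx

theorem apply_npc (h : HasNormalPComplement p G) {χ : IrrCharacter G} (hχ : χ ∈ principalBlock M G) {g : G}
    (hg : ¬ p ∣ orderOf g) : (χ : G → ℂ) g = (χ : G → ℂ) 1 := principal_apply_of_isConj_pPart Modular.out pElt_one
  (Transfer.hasNormalPComplement_subgroup h _) hχ (by rw [pPart_of_not_dvd hp.out hg])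

theorem rank_npc (h : HasNormalPComplement p G) : blockRank p (principalBlock M G) = 1 :=
  blockRank_eq_one_of_forall irrOne_mem_principalBlock fun θ a => ⟨_, fun _ b => (apply_npc h a b).trans (mul_one _).symm⟩

end Cfsg.Lib.B27
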